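import Cfsg.Agent.Solv.Basic

/-!
# Minimal Frobenius groups of order `p ^ k * q` and their direct products
-/

namespace CF.Zip

open Subgroup

/-- The elements `x` with `x ^ r = 1` are closed under multiplication. -/
def ClP (F : Type*) [Group F] (r : ℕ) : Prop := ∀ x y : F, x ^ r = 1 → y ^ r = 1 → (x * y) ^ r = 1

/-- A minimal Frobenius group with kernel a `p`-group and complement of order `q`. -/
structure MF (F : Type*) [Group F] (p q : ℕ) : Prop where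
  ord : ∀ x : F, x ^ p = 1 ∨ x ^ q = 1
  exp : ∃ x : F, orderOf x = p
  exq : ∃ y : F, orderOf y = q
  cl : ClP F p
  gen : ∀ H : Subgroup F, ∀ x ∈ H, ∀ y ∈ H, orderOf x = p → orderOf y = q → H = ⊤

section
variable {F : Type*} [Group F] {p q : ℕ}

theorem eq_one_of_cop {x : F} (h : p.Coprime q) (h1 : x ^ p = 1) (h2 : x ^ q = 1) : x = 1 :=
  orderOf_eq_one_iff.mp (Nat.eq_one_of_dvd_coprimes h (orderOf_dvd_of_pow_eq_one h1)
    (orderOf_dvd_of_pow_eq_one h2))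

theorem MF.nrm (h : MF F p q) (hp : p.Prime) (hq : q.Prime) (hne : p ≠ q) (N : Subgroup F)
    [N.Normal] (hN : N ≠ ⊥) {x : F} (hx : x ^ p = 1) : x ∈ N := by
  have := Fact.mk hp
  have hc := (Nat.coprime_primes hp hq).mpr hne
  obtain ⟨x₀, hx₀⟩ := h.exp
  obtain ⟨y₀, hy₀⟩ := h.exq
  have p0 : x₀ ^ p = 1 := hx₀ ▸ pow_orderOf_eq_one x₀
  obtain ⟨n, hn, hn1⟩ := N.bot_or_exists_ne_one.resolve_left hN
  have h1 : ∃ z ∈ N, orderOf z = p := by
    rcases h.ord n with e | e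
    · exact ⟨n, hn, orderOf_eq_prime e hn1⟩
    refine ⟨x₀ * (n * x₀⁻¹ * n⁻¹), ?_, orderOf_eq_prime (h.cl _ _ p0
      (by rw [conj_pow, inv_pow, p0]; simp)) fun e' => ?_⟩
    · simpa [mul_assoc] using N.mul_mem (Normal.conj_mem ‹_› n hn x₀) (N.inv_mem hn)
    have hcm : Commute x₀ n := by
      have : x₀ * n = x₀ * (n * x₀⁻¹ * n⁻¹) * (n * x₀) := by group
      rw [e', one_mul] at this
      exact this
    rcases h.ord (x₀ * n) with e'' | e''
    · rw [hcm.mul_pow, p0, one_mul] at e''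
      exact hn1 (eq_one_of_cop hc e'' e)
    · rw [hcm.mul_pow, e, mul_one] at e''
      rw [eq_one_of_cop hc p0 e'', orderOf_one] at hx₀
      exact hp.one_lt.ne hx₀
  obtain ⟨z, hz, hzo⟩ := h1
  have h2 := h.gen ((zpowers (y₀ : F ⧸ N)).comap (QuotientGroup.mk' N)) z
    (by simp [mem_comap, (QuotientGroup.eq_one_iff z).mpr hz]) y₀ (mem_zpowers _) hzo hy₀
  obtain ⟨k, hk⟩ : x ∈ (zpowers (y₀ : F ⧸ N)).comap (QuotientGroup.mk' N) := h2 ▸ mem_top x
  rw [← QuotientGroup.eq_one_iff]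
  refine eq_one_of_cop hc (by rw [← QuotientGroup.mk_pow, hx]; rfl) ?_
  have hk' : (y₀ : F ⧸ N) ^ k = x := hk
  rw [← hk', ← zpow_natCast, ← zpow_mul, mul_comm, zpow_mul, zpow_natCast, ← QuotientGroup.mk_pow,
    ← hy₀, pow_orderOf_eq_one]
  simp

theorem MF.ncl (h : MF F p q) (hp : p.Prime) (hq : q.Prime) (hne : p ≠ q) : ¬ ClP F q := by
  intro hc
  obtain ⟨x₀, hx₀⟩ := h.exp
  obtain ⟨y₀, hy₀⟩ := h.exq
  let N : Subgroup F :=
    { carrier := {x | x ^ q = 1}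
      one_mem' := one_pow q
      mul_mem' := fun {a b} => hc a b
      inv_mem' := fun {a} ha => by rw [Set.mem_setOf_eq, inv_pow, ha, inv_one] }
  have : N.Normal := ⟨fun n hn g => by
    change _ ^ q = 1
    rw [conj_pow, hn]; simp⟩
  have h1 : x₀ ∈ N := h.nrm hp hq hne N (fun e => by
    have h2 : y₀ ∈ N := show y₀ ^ q = 1 from hy₀ ▸ pow_orderOf_eq_one y₀
    rw [e, mem_bot] at h2
    rw [h2, orderOf_one] at hy₀
    exact hq.one_lt.ne hy₀) (hx₀ ▸ pow_orderOf_eq_one x₀)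
  exact hne ((Nat.prime_dvd_prime_iff_eq hp hq).mp (hx₀ ▸ orderOf_dvd_of_pow_eq_one h1))

theorem exists_MF_sub [Finite F] (ord : ∀ x : F, x ^ p = 1 ∨ x ^ q = 1) (exp : ∃ x : F, orderOf x = p)
    (exq : ∃ y : F, orderOf y = q) (cl : ClP F p) : ∃ H : Subgroup F, MF H p q := by
  obtain ⟨x₀, hx₀⟩ := exp
  obtain ⟨y₀, hy₀⟩ := exq
  obtain ⟨H, ⟨⟨x, hx, hxo⟩, y, hy, hyo⟩, hmin⟩ := exists_minimal_of_wellFoundedLT
    (fun H : Subgroup F => (∃ x ∈ H, orderOf x = p) ∧ ∃ y ∈ H, orderOf y = q)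
    ⟨⊤, ⟨x₀, mem_top _, hx₀⟩, y₀, mem_top _, hy₀⟩
  refine ⟨H, fun z => (ord z).imp Subtype.ext Subtype.ext, ⟨⟨x, hx⟩, by simpa⟩, ⟨⟨y, hy⟩, by simpa⟩,
    fun a b ha hb => Subtype.ext (cl a b (congrArg Subtype.val ha) (congrArg Subtype.val hb)),
    fun K a ha b hb hao hbo => ?_⟩
  have := hmin (y := K.map H.subtype) ⟨⟨a, mem_map_of_mem _ ha, by simpa⟩,
    b, mem_map_of_mem _ hb, by simpa⟩ (map_subtype_le K)
  refine eq_top_iff.mpr fun z _ => ?_
  obtain ⟨w, hw, e⟩ := this z.2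
  rwa [← Subtype.ext e]

end

theorem fin2 : ∀ i k : Fin 2, i = k ∨ i = k.rev := by decide

theorem exists_MF {p q : ℕ} (hp : p.Prime) (hq : q.Prime) (hne : p ≠ q) :
    ∃ (F : Type) (_ : Group F) (_ : Finite F), MF F p q := by
  have := Fact.mk hp
  have := Fact.mk hq
  let K := GaloisField p (q - 1)
  have hq1 : q - 1 ≠ 0 := by have := hq.two_le; omega
  have hc := (Nat.coprime_primes hp hq).mpr hne
  obtain ⟨ζ, hζ⟩ : ∃ ζ : Kˣ, orderOf ζ = q := by
    refine exists_prime_orderOf_dvd_card' q ?_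
    rw [Nat.card_units, GaloisField.card p _ hq1]
    have := Nat.ModEq.pow_totient hc
    rw [Nat.totient_prime hq] at this
    exact (Nat.modEq_iff_dvd' (Nat.one_le_pow _ _ hp.pos)).mp this.symm
  let E : Subgroup (Equiv.Perm K) :=
    { carrier := {σ | ∃ u b : K, u ^ q = 1 ∧ ∀ x, σ x = u * x + b}
      one_mem' := ⟨1, 0, one_pow q, by simp⟩
      mul_mem' := by
        rintro σ τ ⟨u, b, hu, h⟩ ⟨v, c, hv, h'⟩
        exact ⟨u * v, u * c + b, by rw [mul_pow, hu, hv, one_mul], fun x => by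
          rw [Equiv.Perm.mul_apply, h, h']; ring⟩
      inv_mem' := by
        rintro σ ⟨u, b, hu, h⟩
        have hu0 : u ≠ 0 := fun e => by rw [e, zero_pow hq.ne_zero] at hu; exact zero_ne_one hu
        refine ⟨u⁻¹, -(u⁻¹ * b), by rw [inv_pow, hu, inv_one], fun x => ?_⟩
        rw [Equiv.Perm.inv_eq_iff_eq, h, mul_add, mul_neg, mul_inv_cancel_left₀ hu0,
          mul_inv_cancel_left₀ hu0, neg_add_cancel_right] }
  have hpow : ∀ (σ : Equiv.Perm K) (u b : K), (∀ x, σ x = u * x + b) → ∀ (n : ℕ) (x : K),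
      (σ ^ n) x = u ^ n * x + (∑ i ∈ Finset.range n, u ^ i) * b := by
    intro σ u b h n
    induction n with
    | zero => simp
    | succ n ih =>
      intro x
      rw [pow_succ, Equiv.Perm.mul_apply, ih, h, Finset.sum_range_succ]
      ring
  have h1 : ∀ (σ : E) (b : K), (∀ x, σ.1 x = 1 * x + b) → σ ^ p = 1 := fun σ b h => by
    ext x
    have := hpow σ 1 b h p x
    simpa using this
  have h2 : ∀ σ : E, σ ^ p = 1 → ∃ b, ∀ x, σ.1 x = 1 * x + b := fun σ hσ => by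
    obtain ⟨u, b, hu, h⟩ := σ.2
    have e : σ.1 ^ p = 1 := congrArg Subtype.val hσ
    have e0 := hpow σ u b h p 0
    have e1 := hpow σ u b h p 1
    rw [e] at e0 e1
    simp only [Equiv.Perm.one_apply, mul_zero, zero_add, mul_one] at e0 e1
    rw [← e0, add_zero] at e1
    have : u = 1 := orderOf_eq_one_iff.mp (Nat.eq_one_of_dvd_coprimes hc
      (orderOf_dvd_of_pow_eq_one e1.symm) (orderOf_dvd_of_pow_eq_one hu))
    exact ⟨b, this ▸ h⟩
  have h3 : ∀ (σ : E) (u b : K), u ^ q = 1 → u ≠ 1 → (∀ x, σ.1 x = u * x + b) → σ ^ q = 1 := by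
    intro σ u b hu hu1 h
    ext x
    have := hpow σ u b h q x
    rw [geom_sum_eq hu1, hu] at this
    simpa using this
  have hζq : (ζ : K) ^ q = 1 := by
    have := pow_orderOf_eq_one ζ
    rw [hζ] at this
    rw [← Units.val_pow_eq_pow_val, this]; rfl
  have hζ1 : (ζ : K) ≠ 1 := fun e => by
    rw [Units.val_eq_one.mp e, orderOf_one] at hζ
    exact hq.one_lt.ne hζ
  obtain ⟨H, hH⟩ := exists_MF_sub (F := E) (p := p) (q := q) (fun σ => by
      obtain ⟨u, b, hu, h⟩ := σ.2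
      by_cases e : u = 1
      · exact Or.inl (h1 σ b (e ▸ h))
      · exact Or.inr (h3 σ u b hu e h))
    ⟨⟨Equiv.addRight 1, 1, 1, one_pow q, by simp⟩, orderOf_eq_prime (h1 _ 1 (by simp)) fun e => by
      simpa using congrArg (fun σ : E => σ.1 0) e⟩
    ⟨⟨Equiv.mulLeft₀ (ζ : K) ζ.ne_zero, ζ, 0, hζq, by simp⟩,
      orderOf_eq_prime (h3 _ ζ 0 hζq hζ1 (by simp)) fun e => hζ1 (by
        simpa using congrArg (fun σ : E => σ.1 1) e)⟩
    fun σ τ hσ hτ => by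
      obtain ⟨b, h⟩ := h2 σ hσ
      obtain ⟨c, h'⟩ := h2 τ hτ
      exact h1 _ (c + b) fun x => by
        rw [coe_mul, Equiv.Perm.mul_apply, h, h']; ring
  exact ⟨H, inferInstance, inferInstance, hH⟩

section prod
variable {ι : Type} [Fintype ι] [DecidableEq ι] {p : ι → Fin 2 → ℕ} (hp : ∀ j i, (p j i).Prime)
  (hinj : ∀ j i j' i', p j i = p j' i' → j = j' ∧ i = i') {σ : ι → Fin 2}
  {F : ι → Type} [∀ j, Group (F j)] (hF : ∀ j, MF (F j) (p j (σ j)) (p j (σ j).rev))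
include hp hinj hF

omit [Fintype ι] [DecidableEq ι] hp hinj in
theorem pr_ord (j : ι) (x : F j) : ∃ i, x ^ p j i = 1 :=
  ((hF j).ord x).elim (fun h => ⟨_, h⟩) fun h => ⟨_, h⟩

omit [Fintype ι] [DecidableEq ι] hp hinj in
theorem pr_ex (j : ι) (i : Fin 2) : ∃ x : F j, orderOf x = p j i := by
  rcases fin2 i (σ j) with rfl | rfl
  exacts [(hF j).exp, (hF j).exq]

omit [Fintype ι] [DecidableEq ι] hp hF in
theorem pr_ne (j : ι) : p j (σ j) ≠ p j (σ j).rev := fun e => by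
  have := (hinj _ _ _ _ e).2
  revert this
  generalize σ j = k
  revert k
  decide

omit [Fintype ι] in
theorem pr_single {j : ι} {i : Fin 2} {x : ∀ j, F j} (hx : x ^ p j i = 1) :
    x = Pi.mulSingle j (x j) := by
  ext k
  by_cases e : k = j
  · subst e; simp
  · obtain ⟨i', h⟩ := pr_ord hF k (x k)
    rw [Pi.mulSingle_eq_of_ne e]
    exact eq_one_of_cop ((Nat.coprime_primes (hp _ _) (hp _ _)).mpr fun e' =>
      e (hinj _ _ _ _ e').1) h (congrFun hx k)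

omit [DecidableEq ι] hp hinj in
theorem pr_exp (x : ∀ j, F j) : x ^ ∏ u : ι × Fin 2, p u.1 u.2 = 1 := by
  ext k
  obtain ⟨i, h⟩ := pr_ord hF k (x k)
  obtain ⟨t, ht⟩ := Finset.dvd_prod_of_mem (fun u : ι × Fin 2 => p u.1 u.2) (Finset.mem_univ (k, i))
  rw [ht, Pi.pow_apply, pow_mul, h, one_pow, Pi.one_apply]

omit [DecidableEq ι] in
theorem pr_spec : Set.range (orderOf : (∀ j, F j) → ℕ) =
    {m : ℕ | ∃ c : ι → ℕ, (∀ j, c j = 1 ∨ c j = p j 0 ∨ c j = p j 1) ∧ m = ∏ j, c j} := by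
  have h1 : ∀ x : ∀ j, F j, orderOf x = ∏ j, orderOf (x j) := fun x => by
    rw [Pi.orderOf, Finset.lcm_eq_prod]
    intro j _ k _ hne
    obtain ⟨i, h⟩ := pr_ord hF j (x j)
    obtain ⟨i', h'⟩ := pr_ord hF k (x k)
    exact (((Nat.coprime_primes (hp _ _) (hp _ _)).mpr fun e =>
      hne (hinj _ _ _ _ e).1).coprime_dvd_left (orderOf_dvd_of_pow_eq_one h)).coprime_dvd_right
      (orderOf_dvd_of_pow_eq_one h')
  ext m
  constructor
  · rintro ⟨x, rfl⟩
    refine ⟨_, fun j => ?_, h1 x⟩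
    obtain ⟨i, h⟩ := pr_ord hF j (x j)
    rcases (Nat.dvd_prime (hp j i)).mp (orderOf_dvd_of_pow_eq_one h) with e | e
    · exact Or.inl e
    · fin_cases i
      exacts [Or.inr (Or.inl e), Or.inr (Or.inr e)]
  · rintro ⟨c, hc, rfl⟩
    have : ∀ j, ∃ x : F j, orderOf x = c j := fun j => by
      rcases hc j with e | e | e
      · exact ⟨1, by rw [e, orderOf_one]⟩
      · rw [e]; exact pr_ex hF j 0
      · rw [e]; exact pr_ex hF j 1
    choose x hx using this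
    exact ⟨x, by rw [h1]; exact Finset.prod_congr rfl fun j _ => hx j⟩

omit [Fintype ι] in
theorem pr_cl (j : ι) (i : Fin 2) : ClP (∀ j, F j) (p j i) ↔ i = σ j := by
  have h1 : ClP (∀ j, F j) (p j i) ↔ ClP (F j) (p j i) := by
    constructor
    · intro h x y hx hy
      have := h (Pi.mulSingle j x) (Pi.mulSingle j y) (by rw [← Pi.mulSingle_pow, hx]; simp)
        (by rw [← Pi.mulSingle_pow, hy]; simp)
      simpa using congrFun this j
    · intro h x y hx hy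
      rw [pr_single hp hinj hF hx, pr_single hp hinj hF hy, ← Pi.mulSingle_mul, ← Pi.mulSingle_pow,
        h _ _ (congrFun hx j) (congrFun hy j)]
      simp
  rw [h1]
  rcases fin2 i (σ j) with rfl | rfl
  · exact ⟨fun _ => rfl, fun _ => (hF j).cl⟩
  · exact ⟨fun h => absurd h ((hF j).ncl (hp _ _) (hp _ _) (pr_ne hinj j)),
      fun h => absurd (by rw [h]) (pr_ne hinj j)⟩

theorem pr_min (H : Subgroup (∀ j, F j)) (N : Subgroup H) [N.Normal]
    (h : ∀ j i, ∃ z : H ⧸ N, orderOf z = p j i) : H = ⊤ ∧ N = ⊥ := by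
  have h1 : ∀ j i, ∃ x : F j, orderOf x = p j i ∧ ∃ hx : Pi.mulSingle j x ∈ H,
      (⟨_, hx⟩ : H) ∉ N := by
    intro j i
    have := Fact.mk (hp j i)
    obtain ⟨z, hz⟩ := h j i
    obtain ⟨y, rfl⟩ := QuotientGroup.mk_surjective z
    have e := Finset.mul_prod_erase Finset.univ (fun u : ι × Fin 2 => p u.1 u.2)
      (Finset.mem_univ (j, i))
    set t := ∏ u ∈ Finset.univ.erase (j, i), p u.1 u.2
    have h2 : (p j i).Coprime t := Nat.Coprime.prod_right fun u hu =>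
      (Nat.coprime_primes (hp _ _) (hp _ _)).mpr fun e' => Finset.ne_of_mem_erase hu
        (Prod.ext (hinj _ _ _ _ e').1.symm (hinj _ _ _ _ e').2.symm)
    have h3 : (y.1 ^ t) ^ p j i = 1 := by
      rw [← pow_mul, mul_comm, e]; exact pr_exp hF _
    have h4 : y ^ t ∉ N := fun h4 => by
      rw [← QuotientGroup.eq_one_iff, QuotientGroup.mk_pow, ← orderOf_dvd_iff_pow_eq_one, hz] at h4
      exact (hp j i).one_lt.ne' (h2.eq_one_of_dvd h4)
    have h5 := pr_single hp hinj hF h3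
    have h7 : Pi.mulSingle j ((y.1 ^ t) j) ∈ H := by rw [← h5]; exact H.pow_mem y.2 t
    refine ⟨(y.1 ^ t) j, orderOf_eq_prime (congrFun h3 j) fun e' => h4 ?_, h7, fun h6 => h4 ?_⟩
    · rw [e', Pi.mulSingle_one] at h5
      rw [show y ^ t = 1 from Subtype.ext h5]
      exact N.one_mem
    · rwa [show y ^ t = ⟨_, h7⟩ from Subtype.ext h5]
  have h2 : H = ⊤ := eq_top_iff.mpr fun g _ => pi_mem_of_mulSingle_mem g fun j => by
    obtain ⟨x, hx, hxH, -⟩ := h1 j (σ j)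
    obtain ⟨y, hy, hyH, -⟩ := h1 j (σ j).rev
    have := (hF j).gen (H.comap (MonoidHom.mulSingle F j)) x hxH y hyH hx hy
    exact (this ▸ mem_top (g j) : g j ∈ H.comap (MonoidHom.mulSingle F j))
  refine ⟨h2, ?_⟩
  by_contra hN
  obtain ⟨n, hn, hn1⟩ := N.bot_or_exists_ne_one.resolve_left hN
  have h3 : n ^ ∏ u : ι × Fin 2, p u.1 u.2 = 1 := Subtype.ext (pr_exp hF _)
  have h4 : orderOf n ≠ 0 := ne_zero_of_dvd_ne_zero
    (Finset.prod_ne_zero_iff.mpr fun u _ => (hp _ _).ne_zero) (orderOf_dvd_of_pow_eq_one h3)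
  obtain ⟨r, hr, hrn⟩ := Nat.exists_prime_and_dvd (mt orderOf_eq_one_iff.mp hn1)
  obtain ⟨⟨j, i⟩, -, hji⟩ := (hr.prime.dvd_finset_prod_iff _).mp
    (hrn.trans (orderOf_dvd_of_pow_eq_one h3))
  obtain rfl := (Nat.prime_dvd_prime_iff_eq hr (hp j i)).mp hji
  have h5 := orderOf_pow_orderOf_div h4 hrn
  have h6 := N.pow_mem hn (orderOf n / p j i)
  generalize n ^ (orderOf n / p j i) = w at h5 h6
  have h7 : w.1 ^ p j i = 1 := congrArg Subtype.val (h5 ▸ pow_orderOf_eq_one w)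
  have h8 := pr_single hp hinj hF h7
  have : (N.map H.subtype).Normal := Normal.map ‹_› _ fun g => ⟨⟨g, h2 ▸ mem_top g⟩, rfl⟩
  obtain ⟨x, hx, hxH, hxN⟩ := h1 j (σ j)
  obtain ⟨v, hv, e⟩ := (hF j).nrm (hp _ _) (hp _ _) (pr_ne hinj j)
    ((N.map H.subtype).comap (MonoidHom.mulSingle F j)) (fun e => by
      have h9 : w.1 j ∈ (N.map H.subtype).comap (MonoidHom.mulSingle F j) := ⟨w, h6, h8⟩
      rw [e, mem_bot] at h9
      rw [h9, Pi.mulSingle_one] at h8
      rw [show w = 1 from Subtype.ext h8, orderOf_one] at h5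
      exact hr.one_lt.ne h5) (hx ▸ pow_orderOf_eq_one x)
  exact hxN (by rwa [show (⟨_, hxH⟩ : H) = v from Subtype.ext e.symm])

end prod

end CF.Zip
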