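import Cfsg.Agent.Zip.A

/-!
# The Guralnick-Tracey theorem on iterated commutators
-/

namespace CF.Zip

open Subgroup Cfsg CF.Solv CF.SolvStr
open scoped Pointwise

universe u

variable {G : Type*} [Group G]

/-- The subgroup generated by the `H`-conjugates of `a`. -/
def ncl (a : G) (H : Subgroup G) : Subgroup G := closure {x | ∃ h ∈ H, x = h * a * h⁻¹}

theorem ncl_mono (a : G) {H K : Subgroup G} (h : H ≤ K) : ncl a H ≤ ncl a K :=
  closure_mono fun _ ⟨y, hy, e⟩ => ⟨y, h hy, e⟩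

theorem ncl_le {a : G} {H : Subgroup G} (h : a ∈ H) : ncl a H ≤ H :=
  (closure_le _).mpr (by rintro _ ⟨y, hy, rfl⟩; exact H.mul_mem (H.mul_mem hy h) (H.inv_mem hy))

theorem mem_ncl (a : G) (H : Subgroup G) : a ∈ ncl a H :=
  subset_closure ⟨1, H.one_mem, by simp⟩

theorem le_normalizer_ncl [Finite G] (a : G) (H : Subgroup G) :
    H ≤ normalizer (ncl a H : Set G) := fun g hg => by
  refine mem_normalizer_of_conj_smul_le ?_
  rw [conj_smul_eq_map, ncl, MonoidHom.map_closure]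
  refine closure_mono ?_
  rintro _ ⟨_, ⟨y, hy, rfl⟩, rfl⟩
  exact ⟨g * y, H.mul_mem hg hy, by simp [mul_assoc]⟩

theorem unique_max [Finite G] {a : G} (ha : normalClosure {a} = ⊤) {M : Subgroup G}
    (hM : IsCoatom M) (h : ∀ H, H ≠ ⊤ → a ∈ H → H ≤ ncl a H → H ≤ M) {L : Subgroup G}
    (hL : IsCoatom L) (haL : a ∈ L) : L = M := by
  by_contra hne
  obtain ⟨D, ⟨hD1, hD2, L₀, hL₀, hDL, hne₀⟩, hmax⟩ := exists_maximal_of_wellFoundedGT
    (fun D : Subgroup G => a ∈ D ∧ D ≤ ncl a D ∧ ∃ L, IsCoatom L ∧ D ≤ L ∧ L ≠ M)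
    ⟨zpowers a, mem_zpowers a, zpowers_le.mpr (mem_ncl a _), L, hL, zpowers_le.mpr haL, hne⟩
  obtain ⟨N, hN, hDN, hN'⟩ := flavell hM (h D (fun e => hL₀.1 (top_le_iff.mp (e ▸ hDL))) hD1 hD2)
    hL₀ hDL hne₀ fun L' hL' hle hne' => by
      obtain ⟨X, ⟨hX1, hX2⟩, hmin⟩ := exists_minimal_of_wellFoundedLT
        (fun X : Subgroup G => D ≤ X ∧ SN X L') ⟨L', hle, SN.refl _⟩
      have h1 : X ≤ ncl a X := hmin ⟨hD2.trans (ncl_mono a hX1),
        (SN.of_le_normalizer (ncl_le (hX1 hD1)) (le_normalizer_ncl a X)).trans hX2⟩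
        (ncl_le (hX1 hD1))
      have h2 : X ≤ D := hmax ⟨hX1 hD1, h1, L', hL', hX2.le, hne'⟩ hX1
      rwa [le_antisymm hX1 h2]
  exact hN' (top_le_iff.mp (ha ▸ normalClosure_le_normal (Set.singleton_subset_iff.mpr (hDN hD1))))

theorem gt_group (k : ℕ) (Γ : Type u) [Group Γ] [Finite Γ] : ∀ a : Γ, normalClosure {a} = ⊤ →
    closure (insert a (Set.range (fun c : Γ => c * a * c⁻¹ * a⁻¹)^[k])) = ⊤ := by
  revert Γ
  refine group_induction fun Γ _ _ ih a ha => ?_
  by_contra hT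
  obtain ⟨M, hM, hle⟩ := (eq_top_or_exists_le_coatom _).resolve_left hT
  have haM : a ∈ M := hle (subset_closure (Set.mem_insert _ _))
  have h1 : ∀ H, H ≠ ⊤ → a ∈ H → H ≤ ncl a H → H ≤ M := by
    intro H hH haH hn
    have h2 := ih H (card_lt_of_ne_top hH) ⟨a, haH⟩ (by
      refine eq_top_iff.mpr fun x _ => ?_
      have h0 : (⟨a, haH⟩ : H) ∈ normalClosure ({⟨a, haH⟩} : Set H) := subset_normalClosure rfl
      have : ncl a H ≤ (normalClosure ({⟨a, haH⟩} : Set H)).map H.subtype := (closure_le _).mpr (by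
        rintro _ ⟨y, hy, rfl⟩
        exact mem_map_of_mem H.subtype ((normalClosure_normal).conj_mem _ h0 ⟨y, hy⟩))
      obtain ⟨y, hy, e⟩ := this (hn x.2)
      rwa [← Subtype.ext e])
    rw [← range_subtype H, MonoidHom.range_eq_map, ← h2, MonoidHom.map_closure]
    refine (Subgroup.closure_mono ?_).trans hle
    rintro _ ⟨x, rfl | ⟨c, rfl⟩, rfl⟩
    · exact Set.mem_insert _ _
    · refine Set.mem_insert_of_mem _ ⟨c, ?_⟩
      exact ((Function.Semiconj.iterate_right (f := fun x : H => (x : Γ))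
        (ga := fun c : H => c * ⟨a, haH⟩ * c⁻¹ * (⟨a, haH⟩ : H)⁻¹)
        (gb := fun c : Γ => c * a * c⁻¹ * a⁻¹) (fun _ => rfl) k) c).symm
  have h2 : ∀ g : Γ, g * a * g⁻¹ * a⁻¹ ∈ M → g ∈ M := fun g hg => by
    have h3 : a ∈ MulAut.conj g⁻¹ • M := by
      rw [mem_conj_smul_iff, inv_inv]
      simpa using M.mul_mem hg haM
    have h4 := unique_max ha hM h1 (coatom_cj hM g⁻¹) h3
    refine M.inv_mem_iff.mp (mem_of_cj_eq (X := zpowers a) (fun N _ hN => top_le_iff.mp
      (ha ▸ normalClosure_le_normal (Set.singleton_subset_iff.mpr (hN (mem_zpowers a))))) hM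
      (zpowers_le.mpr haM) h4)
  have h3 : ∀ n : ℕ, ∀ g : Γ, (fun c : Γ => c * a * c⁻¹ * a⁻¹)^[n] g ∈ M → g ∈ M := by
    intro n
    induction n with
    | zero => exact fun g hg => hg
    | succ n ih' => exact fun g hg => h2 g (ih' _ hg)
  exact hM.1 (eq_top_iff.mpr fun g _ =>
    h3 k g (hle (subset_closure (Set.mem_insert_of_mem _ ⟨g, rfl⟩))))

theorem comm_aux (y a : G) (i : ℤ) :
    y * a ^ i * a * (y * a ^ i)⁻¹ * a⁻¹ = y * (a * y⁻¹ * a⁻¹) := by group

/-- Guralnick-Tracey: if `[G, α] = G` then the iterated commutators generate `G`. -/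
theorem gt [Finite G] (α : MulAut G)
    (hG : closure (Set.range (fun c : G => c * (α c)⁻¹)) = ⊤) (k : ℕ) :
    closure (Set.range ((fun c : G => c * (α c)⁻¹)^[k])) = ⊤ := by
  rcases k with _ | k
  · simp
  let Γ := G ⋊[(zpowers α).subtype] zpowers α
  have : Finite Γ := Finite.of_equiv _ SemidirectProduct.equivProd.symm
  let a : Γ := SemidirectProduct.inr ⟨α, mem_zpowers α⟩
  have hd : ∀ c : Γ, ∃ i : ℤ, c = SemidirectProduct.inl c.left * a ^ i := by
    intro c
    obtain ⟨i, hi⟩ := c.right.2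
    refine ⟨i, ?_⟩
    rw [← map_zpow SemidirectProduct.inr, show (⟨α, mem_zpowers α⟩ : zpowers α) ^ i = c.right from
      Subtype.ext hi, SemidirectProduct.inl_left_mul_inr_right]
  have hc : ∀ c : Γ, c * a * c⁻¹ * a⁻¹ = SemidirectProduct.inl (c.left * (α c.left)⁻¹) := by
    intro c
    obtain ⟨i, h1⟩ := hd c
    have h2 : a * (SemidirectProduct.inl c.left)⁻¹ * a⁻¹ = SemidirectProduct.inl (α c.left)⁻¹ := by
      rw [← map_inv, ← map_inv, ← SemidirectProduct.inl_aut]
      simp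
    rw [map_mul, ← h2]
    generalize (SemidirectProduct.inl c.left : Γ) = y at h1
    rw [h1]
    exact comm_aux y a i
  have ha : normalClosure {a} = ⊤ := by
    have h0 : a ∈ normalClosure {a} := subset_normalClosure rfl
    have h1 : (⊤ : Subgroup G) ≤ (normalClosure {a}).comap SemidirectProduct.inl := by
      rw [← hG, closure_le]
      rintro _ ⟨c, rfl⟩
      have := mul_mem (normalClosure_normal.conj_mem _ h0 (SemidirectProduct.inl c)) (inv_mem h0)
      rwa [hc] at this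
    refine eq_top_iff.mpr fun c _ => ?_
    obtain ⟨i, h2⟩ := hd c
    rw [h2]
    exact mul_mem (h1 (mem_top c.left)) (zpow_mem h0 i)
  have h1 := gt_group (k + 1) Γ a ha
  set K := closure (Set.range ((fun c : G => c * (α c)⁻¹)^[k + 1])) with hK
  have hα : K.map α.toMonoidHom ≤ K := by
    rw [hK, MonoidHom.map_closure]
    refine closure_mono ?_
    rintro _ ⟨_, ⟨c, rfl⟩, rfl⟩
    exact ⟨α c, ((Function.Semiconj.iterate_right (f := fun x : G => α x)
      (ga := fun c : G => c * (α c)⁻¹) (gb := fun c : G => c * (α c)⁻¹)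
      (fun x => by simp) (k + 1)) c).symm⟩
  have hβ : ∀ β ∈ zpowers α, ∀ x ∈ K, β x ∈ K := by
    intro β hβ
    obtain ⟨n, rfl⟩ := (mem_powers_iff_mem_zpowers).mpr hβ
    induction n with
    | zero => exact fun x hx => hx
    | succ n ih =>
      intro x hx
      have := ih (mem_zpowers_iff.mpr ⟨n, by simp⟩) (α x) (hα ⟨x, hx, rfl⟩)
      simpa [pow_succ] using this
  let S : Subgroup Γ :=
    { carrier := {γ | γ.left ∈ K}
      one_mem' := K.one_mem
      mul_mem' := fun {x y} hx hy => K.mul_mem hx (hβ _ x.right.2 _ hy)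
      inv_mem' := fun {x} hx => hβ _ (x.right⁻¹).2 _ (K.inv_mem hx) }
  have h2 : ∀ n : ℕ, ∀ c : Γ, (fun c : Γ => c * a * c⁻¹ * a⁻¹)^[n + 1] c =
      SemidirectProduct.inl ((fun c : G => c * (α c)⁻¹)^[n + 1] c.left) := by
    intro n
    induction n with
    | zero => exact hc
    | succ n ih =>
      intro c
      rw [Function.iterate_succ_apply', ih, hc, Function.iterate_succ_apply' _ (n + 1)]
      rfl
  have h3 : (⊤ : Subgroup Γ) ≤ S := by
    rw [← h1, closure_le]
    rintro _ (rfl | ⟨c, rfl⟩)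
    · exact K.one_mem
    · rw [h2]
      exact subset_closure ⟨c.left, rfl⟩
  exact eq_top_iff.mpr fun g _ => h3 (mem_top (SemidirectProduct.inl g))

end CF.Zip
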