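import Cfsg.Agent.Zip.B

/-!
# Involutory automorphisms inverting few elements of odd order
-/

namespace CF.Zip

open Subgroup Cfsg CF.Solv
open scoped IsMulCommutative

universe u

variable {G : Type*} [Group G]

/-- A bound of Dietzmann-Schur type. -/
theorem card_le_of_gen [Finite G] {S : Set G} (hS : closure S = ⊤) {B e c : ℕ} (hB : S.ncard ≤ B)
    (he0 : 0 < e) (he : ∀ s ∈ S, s ^ e = 1) (hc : (center G).index ≤ c) :
    Nat.card G ≤ c * (c * e) ^ (c * B) := by
  have h0 : 0 < (center G).index := Nat.pos_of_ne_zero FiniteIndex.index_ne_zero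
  have h1 : ∀ x : G, (MonoidHom.transferCenterPow G x) ^ e = 1 := by
    intro x
    have : (⊤ : Subgroup G) ≤ ((powMonoidHom e).comp (MonoidHom.transferCenterPow G)).ker := by
      rw [← hS, closure_le]
      intro s hs
      simp only [SetLike.mem_coe, MonoidHom.mem_ker, MonoidHom.comp_apply, powMonoidHom_apply]
      rw [← map_pow, he s hs, map_one]
    exact this (mem_top x)
  have h2 : ∀ z : center G, z ^ ((center G).index * e) = 1 := fun z => by
    rw [pow_mul, ← h1 z]
    congr 1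
  have h3 : Group.rank G ≤ B := by
    have := Group.rank_le (S := S.toFinite.toFinset) (by rwa [Set.Finite.coe_toFinset])
    rw [← Set.ncard_eq_toFinset_card] at this
    exact this.trans hB
  have h4 := (rank_le_index_mul_rank (center G)).trans (Nat.mul_le_mul hc h3)
  have h5 := Nat.le_of_dvd (by positivity) (card_dvd_exponent_pow_rank' (center G) h2)
  rw [← (center G).index_mul_card]
  refine Nat.mul_le_mul hc (h5.trans ((Nat.pow_le_pow_left (Nat.mul_le_mul_right e hc) _).trans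
    (Nat.pow_le_pow_right (Nat.mul_pos (h0.trans_le hc) he0) h4)))

theorem index_center_le [Finite G] {S : Set G} (hS : closure S = ⊤) {B b : ℕ} (hB : S.ncard ≤ B)
    (hb0 : 0 < b) (hb : ∀ s ∈ S, (centralizer {s}).index ≤ b) : (center G).index ≤ b ^ B := by
  classical
  have := S.toFinite.fintype
  have h1 : (⨅ s : S, centralizer {(s : G)}) ≤ center G := fun x hx => by
    rw [← centralizer_univ, ← coe_top, ← hS, centralizer_closure]
    intro s hs
    exact mem_iInf.mp hx ⟨s, hs⟩ s rfl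
  refine (index_antitone h1).trans ((index_iInf_le _).trans ?_)
  refine (Finset.prod_le_pow_card _ _ b fun (s : S) _ => hb s s.2).trans
    (Nat.pow_le_pow_right hb0 ?_)
  rwa [Finset.card_univ, ← Nat.card_eq_fintype_card, Nat.card_coe_set_eq]

theorem card_normalClosure_le [Finite G] {w : G} {B e : ℕ} (hB : (centralizer {w}).index ≤ B)
    (he0 : 0 < e) (he : w ^ e = 1) :
    Nat.card (normalClosure {w}) ≤ B ^ B * (B ^ B * e) ^ (B ^ B * B) := by
  have h0 : 0 < B := (Nat.pos_of_ne_zero FiniteIndex.index_ne_zero).trans_le hB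
  have h1 : (Group.conjugatesOfSet {w}).ncard ≤ B := by
    refine le_trans (Set.ncard_le_ncard (t := Set.range
      fun q : G ⧸ centralizer {w} => q.out * w * q.out⁻¹) ?_) ?_
    · intro x hx
      obtain ⟨w', hw', hc⟩ := Group.mem_conjugatesOfSet_iff.mp hx
      rw [Set.mem_singleton_iff.mp hw'] at hc
      obtain ⟨g, rfl⟩ := isConj_iff.mp hc
      obtain ⟨c, hc⟩ := QuotientGroup.mk_out_eq_mul (centralizer {w}) g
      refine ⟨g, ?_⟩
      have := c.2 w rfl
      simp only [hc]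
      rw [mul_assoc g, ← this]
      group
    · rw [← Nat.card_coe_set_eq]
      exact (Finite.card_range_le _).trans hB
  have h2 : ((↑) ⁻¹' Group.conjugatesOfSet {w} : Set (normalClosure {w})).ncard ≤ B :=
    (Set.ncard_le_ncard_of_injOn Subtype.val (fun _ h => h) Subtype.val_injective.injOn).trans h1
  have h3 : closure ((↑) ⁻¹' Group.conjugatesOfSet {w} : Set (normalClosure {w})) = ⊤ :=
    closure_closure_coe_preimage
  refine card_le_of_gen h3 h2 he0 (fun s hs => ?_) (index_center_le h3 h2 h0 fun s hs => ?_)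
  · obtain ⟨w', hw', hc⟩ := Group.mem_conjugatesOfSet_iff.mp hs
    rw [Set.mem_singleton_iff.mp hw'] at hc
    obtain ⟨g, e⟩ := isConj_iff.mp hc
    ext
    rw [SubgroupClass.coe_pow, ← e, conj_pow, he]
    simp
  · obtain ⟨w', hw', hc⟩ := Group.mem_conjugatesOfSet_iff.mp hs
    rw [Set.mem_singleton_iff.mp hw'] at hc
    obtain ⟨g, e⟩ := isConj_iff.mp hc
    have h4 : ((centralizer {w}).map (MulAut.conj g).toMonoidHom).subgroupOf (normalClosure {w}) ≤
        centralizer {s} := by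
      rintro x ⟨y, hy, e'⟩ s' hs'
      rw [Set.mem_singleton_iff.mp hs']
      have h5 := hy w rfl
      ext
      change (s : G) * x = x * s
      have e'' : (x : G) = g * y * g⁻¹ := e'.symm
      rw [← e, e'']
      calc g * w * g⁻¹ * (g * y * g⁻¹) = g * (w * y) * g⁻¹ := by group
        _ = _ := by rw [h5]; group
    refine (index_antitone h4).trans (le_trans ?_ hB)
    rw [← index_map_equiv (centralizer {w}) (MulAut.conj g),
      ← relIndex_top_right (map _ (centralizer {w}))]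
    exact relIndex_le_of_le_right le_top (by
      rw [relIndex_top_right]; exact FiniteIndex.index_ne_zero)

/-- The elements of odd order inverted by `α`. -/
def JJ (α : MulAut G) : Set G := {g | Odd (orderOf g) ∧ α g = g⁻¹}

/-- `α` is an involution with `[G, α] = G`. -/
def Hy (α : MulAut G) : Prop :=
  (∀ x, α (α x) = x) ∧ closure (Set.range (fun c : G => c * (α c)⁻¹)) = ⊤

theorem JJ.pow {α : MulAut G} {j : G} (h : j ∈ JJ α) (n : ℕ) : j ^ n ∈ JJ α :=
  ⟨h.1.of_dvd_nat (orderOf_pow_dvd n), by rw [map_pow, h.2, inv_pow]⟩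

theorem JJ.range {α : MulAut G} (k : ℕ) : ∀ j ∈ JJ α, ∃ c, (fun c : G => c * (α c)⁻¹)^[k] c = j := by
  induction k with
  | zero => exact fun j _ => ⟨j, rfl⟩
  | succ k ih =>
    intro j hj
    obtain ⟨r, hr⟩ := hj.1
    obtain ⟨c, hc⟩ := ih _ (JJ.pow hj (r + 1))
    refine ⟨c, ?_⟩
    rw [Function.iterate_succ_apply', hc]
    simp only [map_pow, hj.2, inv_pow, inv_inv]
    rw [← pow_add, show r + 1 + (r + 1) = orderOf j + 1 by omega, pow_succ, pow_orderOf_eq_one,
      one_mul]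

theorem iter_mem_JJ [Finite G] {α : MulAut G} (h : ∀ x, α (α x) = x) (c : G) :
    (fun c : G => c * (α c)⁻¹)^[Nat.card G + 1] c ∈ JJ α := by
  have h0 : α (c * (α c)⁻¹) = (c * (α c)⁻¹)⁻¹ := by simp [h]
  have h1 : ∀ n : ℕ, (fun c : G => c * (α c)⁻¹)^[n + 1] c = (c * (α c)⁻¹) ^ 2 ^ n := by
    intro n
    induction n with
    | zero => simp
    | succ n ih =>
      rw [Function.iterate_succ_apply', ih]
      simp only [map_pow, h0, inv_pow, inv_inv]
      rw [← pow_add, pow_succ, mul_two]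
  rw [h1]
  generalize c * (α c)⁻¹ = x at h0
  refine ⟨?_, by rw [map_pow, h0, inv_pow]⟩
  obtain ⟨a, b, hb, e⟩ := Nat.exists_eq_two_pow_mul_odd (orderOf_pos x).ne'
  have h2 : a ≤ Nat.card G := (Nat.lt_two_pow_self.le.trans (Nat.le_mul_of_pos_right _ hb.pos)).trans
    (e ▸ orderOf_le_card)
  refine hb.of_dvd_nat (orderOf_dvd_of_pow_eq_one ?_)
  rw [← pow_mul, ← orderOf_dvd_iff_pow_eq_one, e]
  exact Nat.mul_dvd_mul_right (pow_dvd_pow 2 h2) b

theorem Hy.closure_JJ [Finite G] {α : MulAut G} (h : Hy α) : closure (JJ α) = ⊤ :=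
  top_le_iff.mp ((gt α h.2 (Nat.card G + 1)).ge.trans (Subgroup.closure_mono (by
    rintro _ ⟨c, rfl⟩; exact iter_mem_JJ h.1 c)))

theorem Hy.quo [Finite G] {α : MulAut G} (h : Hy α) (N : Subgroup G) [N.Normal]
    (hN : ∀ x ∈ N, α x ∈ N) : ∃ β : MulAut (G ⧸ N), Hy β ∧ (∀ x : G, β x = α x) ∧
      JJ β ⊆ ((↑) : G → G ⧸ N) '' JJ α := by
  have e : N.map α = N := le_antisymm (by rintro _ ⟨x, hx, rfl⟩; exact hN x hx)
    fun x hx => ⟨α x, hN x hx, h.1 x⟩
  have h1 : ∀ x : G, QuotientGroup.congr N N α e x = α x := fun _ => rfl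
  refine ⟨QuotientGroup.congr N N α e, ⟨fun x => ?_, ?_⟩, h1, fun j hj => ?_⟩
  · obtain ⟨x, rfl⟩ := QuotientGroup.mk_surjective x
    rw [h1, h1, h.1]
  · rw [eq_top_iff, ← QuotientGroup.range_mk' N, MonoidHom.range_eq_map, ← h.2,
      MonoidHom.map_closure]
    refine Subgroup.closure_mono ?_
    rintro _ ⟨_, ⟨c, rfl⟩, rfl⟩
    exact ⟨c, rfl⟩
  · obtain ⟨c, rfl⟩ := JJ.range (Nat.card G + 1) j hj
    obtain ⟨c, rfl⟩ := QuotientGroup.mk_surjective c
    exact ⟨_, iter_mem_JJ h.1 c, (Function.Semiconj.iterate_right (f := ((↑) : G → G ⧸ N))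
      (ga := fun c : G => c * (α c)⁻¹)
      (gb := fun c : G ⧸ N => c * (QuotientGroup.congr N N α e c)⁻¹) (fun _ => rfl) _) c⟩

theorem JJ.pow_factorial [Finite G] {α : MulAut G} {j : G} (h : j ∈ JJ α) {M : ℕ}
    (hM : (JJ α).ncard ≤ M) : Nat.card (zpowers j) ≤ M ∧ j ^ M.factorial = 1 := by
  have h1 : Nat.card (zpowers j) ≤ M := by
    refine le_trans (Set.ncard_le_ncard (s := (zpowers j : Set G)) fun x hx => ?_) hM
    obtain ⟨n, rfl⟩ := mem_powers_iff_mem_zpowers.mpr hx
    exact JJ.pow h n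
  refine ⟨h1, orderOf_dvd_iff_pow_eq_one.mp (Nat.dvd_factorial (orderOf_pos j) ?_)⟩
  rwa [← Nat.card_zpowers]

theorem Hy.card_fix [Finite G] {α : MulAut G} (h : Hy α)
    (hz : ∀ y, α y = y → y ∈ center G → y = 1) :
    Nat.card {g : G // α g = g} ≤ (JJ α).ncard ^ (JJ α).ncard := by
  rw [← Nat.card_coe_set_eq, ← Nat.card_fun]
  refine Nat.card_le_card_of_injective (fun c j => ⟨c.1 * j.1 * c.1⁻¹, ?_, ?_⟩) ?_
  · rw [← MulAut.conj_apply, MulEquiv.orderOf_eq]; exact j.2.1
  · simp [c.2, j.2.2, mul_assoc]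
  · intro c d e
    refine Subtype.ext (inv_mul_eq_one.mp (hz _ (by simp [c.2, d.2]) ?_))
    rw [← centralizer_univ, ← coe_top, ← h.closure_JJ, centralizer_closure]
    intro j hj
    have := congrArg Subtype.val (congrFun e ⟨j, hj⟩)
    simp only at this
    calc j * (c.1⁻¹ * d.1) = c.1⁻¹ * (c.1 * j * c.1⁻¹) * d.1 := by group
      _ = _ := by rw [this]; group

/-- The Brauer-Fowler count. -/
theorem Hy.bf [Finite G] [Nontrivial G] {α : MulAut G} (h : Hy α) {n : ℕ}
    (hn : Nat.card {g : G // α g = g} ≤ n) :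
    ∃ x, x ≠ 1 ∧ α x = x⁻¹ ∧ (centralizer {x}).index ≤ 2 * n ^ 2 := by
  classical
  have := Fintype.ofFinite G
  by_contra hx
  push Not at hx
  let P : Finset G := Finset.univ.image fun c : G => c * (α c)⁻¹
  have h1 : Fintype.card G ≤ n * P.card := by
    refine Finset.card_le_mul_card_image _ _ fun b hb => le_trans ?_ hn
    obtain ⟨g, -, rfl⟩ := Finset.mem_image.mp hb
    rw [← Nat.card_eq_finsetCard]
    refine Nat.card_le_card_of_injective (fun c => ⟨g⁻¹ * c.1, ?_⟩) fun c d e => ?_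
    · have := (Finset.mem_filter.mp c.2).2
      rw [map_mul, map_inv]
      generalize c.1 = d at this
      calc (α g)⁻¹ * α d = g⁻¹ * (g * (α g)⁻¹) * α d := by group
        _ = _ := by rw [← this]; group
    · exact Subtype.ext (mul_left_cancel (congrArg Subtype.val e))
  have h2 : 2 ≤ P.card := by
    by_contra h3
    have h4 := Finset.card_le_one.mp (Nat.lt_succ_iff.mp (not_le.mp h3))
    have : (⊤ : Subgroup G) ≤ ⊥ := by
      rw [← h.2, closure_le]
      rintro _ ⟨c, rfl⟩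
      exact h4 _ (Finset.mem_image_of_mem _ (Finset.mem_univ c)) 1
        (Finset.mem_image.mpr ⟨1, Finset.mem_univ _, by simp⟩)
    exact top_ne_bot (le_bot_iff.mp this)
  have hP : ∀ p ∈ P, α p = p⁻¹ := fun p hp => by
    obtain ⟨g, -, rfl⟩ := Finset.mem_image.mp hp
    simp [h.1]
  have h3 : P.offDiag.card ≤ (Fintype.card G - 1) / (2 * n ^ 2) * (Finset.univ : Finset G).card := by
    refine Finset.card_le_mul_card_image_of_maps_to (f := fun q => q.1 * q.2⁻¹)
      (fun _ _ => Finset.mem_univ _) _ fun x _ => ?_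
    rcases (P.offDiag.filter fun q => q.1 * q.2⁻¹ = x).eq_empty_or_nonempty with e | ⟨q₀, hq₀⟩
    · rw [e]; exact Nat.zero_le _
    obtain ⟨hq, hqx⟩ := Finset.mem_filter.mp hq₀
    obtain ⟨hq1, hq2, hne⟩ := Finset.mem_offDiag.mp hq
    obtain ⟨g, -, hg⟩ := Finset.mem_image.mp hq1
    have key : ∀ q ∈ P.offDiag.filter fun q => q.1 * q.2⁻¹ = x, α x = q.1⁻¹ * x⁻¹ * q.1 := by
      intro q hq
      obtain ⟨hq, hqx⟩ := Finset.mem_filter.mp hq
      obtain ⟨hq1, hq2, -⟩ := Finset.mem_offDiag.mp hq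
      rw [← hqx, map_mul, map_inv, hP _ hq1, hP _ hq2]
      group
    have h4 := hx (g⁻¹ * x * g) (fun e => hne (by
        have : x = 1 := by
          calc x = g * (g⁻¹ * x * g) * g⁻¹ := by group
            _ = 1 := by rw [e]; group
        exact mul_inv_eq_one.mp (hqx.trans this))) (by
      rw [map_mul, map_mul, map_inv, key _ hq₀, ← hg]; group)
    have h5 : (P.offDiag.filter fun q => q.1 * q.2⁻¹ = x).card ≤
        Nat.card (centralizer {g⁻¹ * x * g}) := by
      rw [← Nat.card_eq_finsetCard]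
      refine Nat.card_le_card_of_injective (fun q => ⟨g⁻¹ * (q.1.1 * q₀.1⁻¹) * g, ?_⟩) ?_
      · rintro _ rfl
        have h6 := (key _ q.2).symm.trans (key _ hq₀)
        have h7 : x = q.1.1 * q₀.1⁻¹ * x * (q.1.1 * q₀.1⁻¹)⁻¹ := by
          rw [← inv_inj]
          calc x⁻¹ = q.1.1 * (q.1.1⁻¹ * x⁻¹ * q.1.1) * q.1.1⁻¹ := by group
            _ = _ := by rw [h6]; group
        calc g⁻¹ * x * g * (g⁻¹ * (q.1.1 * q₀.1⁻¹) * g)
            = g⁻¹ * x * (q.1.1 * q₀.1⁻¹) * g := by group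
          _ = _ := by nth_rewrite 1 [h7]; group
      · intro q q' e
        have h6 : q.1.1 = q'.1.1 := by simpa using congrArg Subtype.val e
        have h7 := (Finset.mem_filter.mp q.2).2.trans (Finset.mem_filter.mp q'.2).2.symm
        rw [h6] at h7
        exact Subtype.ext (Prod.ext h6 (by simpa using h7))
    have hn0 : 0 < n := (Nat.card_pos_iff.mpr ⟨⟨⟨1, map_one _⟩⟩, inferInstance⟩).trans_le hn
    rw [Nat.le_div_iff_mul_le (by positivity)]
    have h6 := (centralizer {g⁻¹ * x * g}).card_mul_index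
    rw [Nat.card_eq_fintype_card (α := G)] at h6
    have h7 : 0 < Nat.card (centralizer {g⁻¹ * x * g}) := Nat.card_pos
    have := Nat.mul_lt_mul_of_le_of_lt h5 h4 h7
    omega
  rw [Finset.offDiag_card, Finset.card_univ] at h3
  have h4 := Nat.div_mul_le_self (Fintype.card G - 1) (2 * n ^ 2)
  have h5 : 0 < Fintype.card G := Fintype.card_pos
  generalize (Fintype.card G - 1) / (2 * n ^ 2) = t at h3 h4
  generalize Fintype.card G = N at *
  generalize P.card = s at *
  have h6 : s * s ≤ 2 * (s * s - s) := by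
    have : 2 * s ≤ s * s := Nat.mul_le_mul_right s h2
    omega
  have h7 : N * N ≤ (N - 1) * N :=
    calc N * N ≤ (n * s) * (n * s) := Nat.mul_le_mul h1 h1
      _ = n ^ 2 * (s * s) := by ring
      _ ≤ n ^ 2 * (2 * (t * N)) := Nat.mul_le_mul_left _ (h6.trans (Nat.mul_le_mul_left _ h3))
      _ = t * (2 * n ^ 2) * N := by ring
      _ ≤ _ := Nat.mul_le_mul_right _ h4
  have := Nat.le_of_mul_le_mul_right h7 h5
  omega

theorem Hy.step [Finite G] {α : MulAut G} (h : Hy α) {m b : ℕ} (hm : (JJ α).ncard ≤ m + 1)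
    (N : Subgroup G) [N.Normal] (hN : ∀ x ∈ N, α x ∈ N)
    (ih : ∀ β : MulAut (G ⧸ N), Hy β → (JJ β).ncard ≤ m → Nat.card (G ⧸ N) ≤ b)
    {j j' : G} (hj : j ∈ JJ α) (hj' : j' ∈ JJ α) (hne : j ≠ j') (e : j⁻¹ * j' ∈ N) :
    Nat.card G ≤ b * Nat.card N := by
  obtain ⟨β, hβ, -, hJ⟩ := h.quo N hN
  rw [card_eq_card_quotient_mul_card_subgroup N]
  refine Nat.mul_le_mul_right _ (ih β hβ ((Set.ncard_le_ncard hJ).trans ?_))
  have h1 : ¬ ((↑) '' JJ α : Set (G ⧸ N)).ncard = (JJ α).ncard := fun e' =>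
    hne (Set.injOn_of_ncard_image_eq e' (Set.toFinite _) hj hj' (QuotientGroup.eq.mpr e))
  have h2 := Set.ncard_image_le (s := JJ α) (f := ((↑) : G → G ⧸ N))
  omega

theorem core {m b : ℕ} (ih : ∀ (G : Type u) [Group G] [Finite G] (α : MulAut G), Hy α →
    (JJ α).ncard ≤ m → Nat.card G ≤ b) : ∃ b', ∀ (G : Type u) [Group G] [Finite G] (α : MulAut G),
    Hy α → (JJ α).ncard ≤ m + 1 → (∀ y, α y = y → y ∈ center G → y = 1) → Nat.card G ≤ b' := by
  let B := 2 * ((m + 1) ^ (m + 1)) ^ 2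
  let e := 2 * (m + 1).factorial
  refine ⟨1 + b * (B ^ B * (B ^ B * e) ^ (B ^ B * B)), fun G _ _ α h hm hz => ?_⟩
  rcases subsingleton_or_nontrivial G with _ | _
  · rw [Nat.card_of_subsingleton (1 : G)]; exact Nat.le_add_right _ _
  obtain ⟨x, hx1, hx2, hx3⟩ := h.bf ((h.card_fix hz).trans ((Nat.pow_le_pow_left hm _).trans
    (Nat.pow_le_pow_right m.succ_pos hm)))
  have h1 : (1 : G) ∈ JJ α := ⟨by simp, by simp⟩
  have key : ∀ w : G, α w = w⁻¹ → (centralizer {w}).index ≤ B → w ^ e = 1 → ∀ j ∈ JJ α,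
      ∀ j' ∈ JJ α, j ≠ j' → j⁻¹ * j' ∈ normalClosure {w} →
      Nat.card G ≤ 1 + b * (B ^ B * (B ^ B * e) ^ (B ^ B * B)) := by
    intro w hw hB he j hj j' hj' hne hN
    refine (h.step hm (normalClosure {w}) (fun x hx => ?_) (ih _) hj hj' hne hN).trans
      ((Nat.mul_le_mul_left _ (card_normalClosure_le hB (by positivity) he)).trans
        (Nat.le_add_left _ _))
    have : normalClosure {w} ≤ (normalClosure {w}).comap α.toMonoidHom :=
      normalClosure_le_normal (by
        rintro _ rfl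
        exact mem_comap.mpr (hw.symm ▸ inv_mem (subset_normalClosure rfl)))
    exact this hx
  rcases Nat.even_or_odd (orderOf x) with ⟨r, hr⟩ | ho
  · have h2 : x ^ r * x ^ r = 1 := by rw [← pow_add, ← hr, pow_orderOf_eq_one]
    have h3 : α (x ^ r) = (x ^ r)⁻¹ := by rw [map_pow, hx2, inv_pow]
    have h4 : α (x ^ r) = x ^ r := h3.trans (inv_eq_of_mul_eq_one_left h2)
    have h5 : x ^ r ≠ 1 := pow_ne_one_of_lt_orderOf
      (by have := orderOf_pos x; omega) (by have := orderOf_pos x; omega)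
    have h6 : ∃ j ∈ JJ α, j * x ^ r ≠ x ^ r * j := by
      by_contra h6
      push Not at h6
      refine h5 (hz _ h4 ?_)
      rwa [← centralizer_univ, ← coe_top, ← h.closure_JJ, centralizer_closure]
    obtain ⟨j, hj, hne⟩ := h6
    refine key (x ^ r) h3 ((index_antitone fun y hy => ?_).trans hx3)
      (by rw [pow_mul, sq, h2, one_pow]) j hj (x ^ r * j * (x ^ r)⁻¹) ⟨?_, ?_⟩
      (fun e => hne (by rw [eq_mul_inv_iff_mul_eq] at e; exact e)) ?_
    · rintro _ rfl
      exact (Commute.pow_left (hy x rfl) r).eq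
    · rw [← MulAut.conj_apply, MulEquiv.orderOf_eq]; exact hj.1
    · rw [map_mul, map_mul, map_inv, h4, hj.2]; group
    · have h7 : x ^ r ∈ normalClosure {x ^ r} := subset_normalClosure rfl
      have := mul_mem (normalClosure_normal.conj_mem _ h7 j⁻¹) (inv_mem h7)
      simpa [mul_assoc] using this
  · have h2 : x ^ e = 1 := by
      rw [show e = (m + 1).factorial * 2 from mul_comm _ _, pow_mul,
        (JJ.pow_factorial ⟨ho, hx2⟩ hm).2, one_pow]
    have h3 : x ∈ normalClosure {x} := subset_normalClosure rfl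
    exact key x hx2 hx3 h2 1 h1 x ⟨ho, hx2⟩ hx1.symm (by rwa [inv_one, one_mul])

theorem bound (m : ℕ) : ∃ b, ∀ (G : Type u) [Group G] [Finite G] (α : MulAut G), Hy α →
    (JJ α).ncard ≤ m → Nat.card G ≤ b := by
  induction m with
  | zero =>
    refine ⟨0, fun G _ _ α _ hm => ?_⟩
    have := (Set.ncard_pos (Set.toFinite (JJ α))).mpr ⟨1, by simp, by simp⟩
    omega
  | succ m ih =>
    obtain ⟨b, ih⟩ := ih
    obtain ⟨b', hb'⟩ := core ih
    refine ⟨b * (m + 1) + b' * (b' * (m + 1).factorial) ^ (b' * (m + 1)), fun G _ _ α h hm => ?_⟩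
    by_cases hc : ∃ j ∈ JJ α, j ≠ 1 ∧ j ∈ center G
    · obtain ⟨j, hj, hj1, hjc⟩ := hc
      have : (zpowers j).Normal := ⟨fun x hx g => by
        rw [mem_center_iff.mp (zpowers_le.mpr hjc hx) g, mul_inv_cancel_right]; exact hx⟩
      refine (h.step hm (zpowers j) (fun x hx => ?_) (ih _) ⟨by simp, by simp⟩ hj hj1.symm
        (by simp)).trans ((Nat.mul_le_mul_left _ (JJ.pow_factorial hj hm).1).trans
          (Nat.le_add_right _ _))
      obtain ⟨n, rfl⟩ := hx
      rw [map_zpow, hj.2]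
      exact zpow_mem (inv_mem (mem_zpowers j)) n
    push Not at hc
    obtain ⟨β, hβ, hβα, hJ⟩ := h.quo (center G) fun x hx => mem_center_iff.mpr fun g => by
      rw [← h.1 g, ← map_mul, mem_center_iff.mp hx, map_mul]
    refine (card_le_of_gen h.closure_JJ hm (m + 1).factorial_pos
      (fun s hs => (JJ.pow_factorial hs hm).2) (hb' _ β hβ ((Set.ncard_le_ncard hJ).trans
        ((Set.ncard_image_le).trans hm)) fun y hy hyc => ?_)).trans (Nat.le_add_left _ _)
    obtain ⟨y, rfl⟩ := QuotientGroup.mk_surjective y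
    rw [hβα, QuotientGroup.eq] at hy
    rw [QuotientGroup.eq_one_iff, ← centralizer_univ, ← coe_top, ← h.closure_JJ,
      centralizer_closure]
    intro j hj
    have h1 : j⁻¹ * (y * j * y⁻¹) ∈ center G := by
      rw [← QuotientGroup.eq]
      simp [← mem_center_iff.mp hyc]
    obtain ⟨z, hz, e⟩ : ∃ z ∈ center G, y * j * y⁻¹ = j * z := ⟨_, h1, by group⟩
    have hjz : Commute j z := mem_center_iff.mp hz j
    have h2 : z ^ orderOf j = 1 := by
      have := congrArg (· ^ orderOf j) e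
      simp only [conj_pow, hjz.mul_pow, pow_orderOf_eq_one] at this
      simpa using this.symm
    have h3 : α z = z⁻¹ := by
      have h4 := congrArg α e
      rw [map_mul, map_mul, map_mul, map_inv, hj.2] at h4
      have h5 : α y * j⁻¹ * (α y)⁻¹ = y * j⁻¹ * y⁻¹ := by
        have := mem_center_iff.mp hy j⁻¹
        calc α y * j⁻¹ * (α y)⁻¹ = α y * (j⁻¹ * ((α y)⁻¹ * y)) * y⁻¹ := by group
          _ = _ := by rw [this]; group
      have h6 : y * j⁻¹ * y⁻¹ = j⁻¹ * z⁻¹ := by
        rw [← mul_inv_rev, ← hjz.eq, ← e]; group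
      exact mul_left_cancel (h4.symm.trans (h5.trans h6))
    have h7 : z = 1 := by
      by_contra h7
      exact hc z ⟨hj.1.of_dvd_nat (orderOf_dvd_of_pow_eq_one h2), h3⟩ h7 hz
    rw [h7, mul_one, mul_inv_eq_iff_eq_mul] at e
    exact e.symm

end CF.Zip
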