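import Cfsg.Agent.Solv.Crit

/-!
# Flavell's generalisation of the zipper lemma

A subgroup with full normal closure which lies in two maximal subgroups cannot be subnormal in all
but one of its maximal overgroups.
-/

namespace CF.Zip

open Subgroup Cfsg CF.Solv CF.SolvStr
open scoped Pointwise

variable {G : Type*} [Group G]

local notation:73 g:74 " ⋆ " H:73 => MulAut.conj g • H

theorem cj_inv_cj (g : G) (H : Subgroup G) : g⁻¹ ⋆ g ⋆ H = H := by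
  rw [conj_smul_conj_smul, inv_mul_cancel, map_one, one_smul]

theorem cj_cj_inv (g : G) (H : Subgroup G) : g ⋆ g⁻¹ ⋆ H = H := by
  rw [conj_smul_conj_smul, mul_inv_cancel, map_one, one_smul]

theorem cj_le_cj {g : G} {H K : Subgroup G} : g ⋆ H ≤ g ⋆ K ↔ H ≤ K :=
  pointwise_smul_le_pointwise_smul_iff

theorem cj_inj {g : G} {H K : Subgroup G} (h : g ⋆ H = g ⋆ K) : H = K :=
  MulAction.injective _ h

theorem cj_one (H : Subgroup G) : (1 : G) ⋆ H = H := by rw [map_one, one_smul]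

theorem cj_of_mem {g : G} {H : Subgroup G} (h : g ∈ H) : g ⋆ H = H :=
  conj_smul_eq_iff.mpr (le_normalizer h)

theorem coatom_cj {K : Subgroup G} (h : IsCoatom K) (g : G) : IsCoatom (g ⋆ K) :=
  (OrderIso.isCoatom_iff (MulAut.conj g).mapSubgroup K).mpr h

/-- `K` is a maximal subgroup containing `X` in which `X` is not subnormal. -/
def Bad (X K : Subgroup G) : Prop := IsCoatom K ∧ X ≤ K ∧ ¬ SN X K

theorem Bad.cj {X K : Subgroup G} (h : Bad X K) (g : G) : Bad (g ⋆ X) (g ⋆ K) :=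
  ⟨coatom_cj h.1 g, cj_le_cj.mpr h.2.1, fun h' => h.2.2 (by
    have := h'.smul g⁻¹
    rwa [cj_inv_cj, cj_inv_cj] at this)⟩

theorem Bad.of_cj {X K : Subgroup G} {g : G} (h : Bad (g ⋆ X) (g ⋆ K)) : Bad X K := by
  have := h.cj g⁻¹
  rwa [cj_inv_cj, cj_inv_cj] at this

theorem Bad.exists_mem {X K : Subgroup G} (h : Bad X K) : ∃ m ∈ K, m ⋆ X ≠ X := by
  by_contra h'
  push Not at h'
  exact h.2.2 (SN.of_le_normalizer h.2.1 fun m hm => conj_smul_eq_iff.mp (h' m hm))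

/-- The configuration to be excluded. -/
structure Good (X K : Subgroup G) : Prop where
  ncl : ∀ N : Subgroup G, N.Normal → X ≤ N → N = ⊤
  bad : Bad X K
  sn : ∀ L, IsCoatom L → X ≤ L → L ≠ K → SN X L
  two : ∃ L, IsCoatom L ∧ X ≤ L ∧ L ≠ K

theorem Good.cj {X K : Subgroup G} (h : Good X K) (g : G) : Good (g ⋆ X) (g ⋆ K) where
  ncl N hN hX := h.ncl N hN (by
    have := cj_le_cj (g := g⁻¹) |>.mpr hX
    rwa [cj_inv_cj, conj_smul_eq_iff.mpr (le_normalizer_of_normal (mem_top _))] at this)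
  bad := h.bad.cj g
  sn L hL hX hne := by
    have := (h.sn (g⁻¹ ⋆ L) (coatom_cj hL _) (by rwa [← cj_le_cj (g := g), cj_cj_inv])
      (fun e => hne (by rw [← e, cj_cj_inv]))).smul g
    rwa [cj_cj_inv] at this
  two := by
    obtain ⟨L, h1, h2, h3⟩ := h.two
    exact ⟨g ⋆ L, coatom_cj h1 g, cj_le_cj.mpr h2, fun e => h3 (cj_inj e)⟩

theorem Good.uniq {X K K' : Subgroup G} (h : Good X K) (h' : Bad X K') : K' = K := by
  by_contra e
  exact h'.2.2 (h.sn K' h'.1 h'.2.1 e)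

theorem mem_of_cj_eq {X K : Subgroup G} (ncl : ∀ N : Subgroup G, N.Normal → X ≤ N → N = ⊤)
    (hK : IsCoatom K) (hX : X ≤ K) {g : G} (hg : g ⋆ K = K) : g ∈ K := by
  rcases (hK.le_iff.mp (le_normalizer (H := K))) with e | e
  · exact absurd (ncl K (normalizer_eq_top_iff.mp e) hX) hK.1
  · rw [← e]; exact conj_smul_eq_iff.mp hg

theorem Good.normalizer_le {X K : Subgroup G} (h : Good X K) : normalizer (X : Set G) ≤ K := by
  intro g hg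
  have := h.bad.cj g
  rw [conj_smul_eq_iff.mpr hg] at this
  exact mem_of_cj_eq h.ncl h.bad.1 h.bad.2.1 (h.uniq this)

/-- The conjugacy class of `T`. -/
def Cl (T : Subgroup G) : Set (Subgroup G) := {X | ∃ g : G, X = g ⋆ T}

theorem Cl.cj {T X : Subgroup G} (h : X ∈ Cl T) (g : G) : g ⋆ X ∈ Cl T := by
  obtain ⟨x, rfl⟩ := h
  exact ⟨g * x, conj_smul_conj_smul _ _ _⟩

/-- A largest counterexample. -/
structure Mx (T M : Subgroup G) : Prop where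
  good : Good T M
  max : ∀ X K : Subgroup G, Good X K → Nat.card X ≤ Nat.card T

section
variable [Finite G] {T M : Subgroup G} (h : Mx T M)
include h

omit [Finite G] in
theorem Mx.ex {X : Subgroup G} (hX : X ∈ Cl T) : ∃ g : G, Bad X (g ⋆ M) := by
  obtain ⟨g, rfl⟩ := hX
  exact ⟨g, h.good.bad.cj g⟩

omit [Finite G] in
theorem Mx.gd {X K : Subgroup G} (hX : X ∈ Cl T) (hK : Bad X K) : Good X K := by
  obtain ⟨g, rfl⟩ := hX
  rw [(h.good.cj g).uniq hK]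
  exact h.good.cj g

omit [Finite G] in
theorem Mx.sn {X J : Subgroup G} (hX : X ∈ Cl T) (hJ : IsCoatom J) (hXJ : X ≤ J) (hb : ¬ Bad X J) :
    SN X J := by
  by_contra h'
  exact hb ⟨hJ, hXJ, h'⟩

theorem Mx.U {X Y K L : Subgroup G} (hX : X ∈ Cl T) (hY : Y ∈ Cl T) (bX : Bad X K) (bY : Bad Y K)
    (hL : IsCoatom L) (hne : L ≠ K) (hXL : X ≤ L) (hYL : Y ≤ L) : X = Y := by
  have gX := h.gd hX bX
  have gY := h.gd hY bY
  have hg : Good (X ⊔ Y) K :=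
    { ncl := fun N hN hle => gX.ncl N hN (le_sup_left.trans hle)
      bad := ⟨bX.1, sup_le bX.2.1 bY.2.1, fun h' => bX.2.2
        (((gX.sn L hL hXL hne).of_le le_sup_left (sup_le hXL hYL)).trans h')⟩
      sn := fun L' hL' hle hne' => (gX.sn L' hL' (le_sup_left.trans hle) hne').sup
        (gY.sn L' hL' (le_sup_right.trans hle) hne')
      two := ⟨L, hL, sup_le hXL hYL, hne⟩ }
  have cX : Nat.card X = Nat.card T := by obtain ⟨g, rfl⟩ := hX; exact card_smul _ _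
  have cY : Nat.card Y = Nat.card T := by obtain ⟨g, rfl⟩ := hY; exact card_smul _ _
  have e1 : X = X ⊔ Y := eq_of_le_of_card_ge le_sup_left (cX ▸ h.max _ _ hg)
  have e2 : Y = X ⊔ Y := eq_of_le_of_card_ge le_sup_right (cY ▸ h.max _ _ hg)
  exact e1.trans e2.symm

end

/-- A pair of maximal subgroups whose intersection contains as many members of the class as
possible. -/
structure Nice (T R L L' : Subgroup G) : Prop where
  cL : IsCoatom L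
  cL' : IsCoatom L'
  ne : L ≠ L'
  le : R ≤ L
  le' : R ≤ L'
  ex : ∃ X ∈ Cl T, X ≤ R
  max : ∀ J J', IsCoatom J → IsCoatom J' → J ≠ J' → R ≤ J → R ≤ J' →
    ∀ X ∈ Cl T, X ≤ J → X ≤ J' → X ≤ R

theorem Nice.symm {T R L L' : Subgroup G} (n : Nice T R L L') : Nice T R L' L :=
  ⟨n.cL', n.cL, n.ne.symm, n.le', n.le, n.ex, n.max⟩

theorem Mx.exists_nice [Finite G] {T M : Subgroup G} (h : Mx T M) : ∃ R L L', Nice T R L L' := by
  obtain ⟨L0, h1, h2, h3⟩ := h.good.two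
  obtain ⟨⟨L, L'⟩, ⟨c1, c2, c3⟩, hmax⟩ := Set.exists_max_image
    {p : Subgroup G × Subgroup G | IsCoatom p.1 ∧ IsCoatom p.2 ∧ p.1 ≠ p.2}
    (fun p => {X ∈ Cl T | X ≤ p.1 ⊓ p.2}.ncard) (Set.toFinite _)
    ⟨(L0, M), h1, h.good.bad.1, h3⟩
  refine ⟨L ⊓ L', L, L', c1, c2, c3, inf_le_left, inf_le_right, ?_, ?_⟩
  · have h4 := hmax (L0, M) ⟨h1, h.good.bad.1, h3⟩
    have h5 : 0 < {X ∈ Cl T | X ≤ L0 ⊓ M}.ncard :=
      (Set.ncard_pos (Set.toFinite _)).mpr ⟨T, ⟨1, (cj_one T).symm⟩, le_inf h2 h.good.bad.2.1⟩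
    exact (Set.ncard_pos (Set.toFinite _)).mp (h5.trans_le h4)
  · intro J J' hJ hJ' hne hle hle' X hX hXJ hXJ'
    have h4 := hmax (J, J') ⟨hJ, hJ', hne⟩
    have h5 := Set.eq_of_subset_of_ncard_le (s := {X ∈ Cl T | X ≤ L ⊓ L'})
      (t := {X ∈ Cl T | X ≤ J ⊓ J'}) (fun Y hY => ⟨hY.1, hY.2.trans (le_inf hle hle')⟩) h4
    have h6 : X ∈ {X ∈ Cl T | X ≤ J ⊓ J'} := ⟨hX, le_inf hXJ hXJ'⟩
    rw [← h5] at h6
    exact h6.2

/-- The join of the members of the class in `R` which are subnormal in `J`. -/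
def RJ (T R J : Subgroup G) : Subgroup G := sSup {X ∈ Cl T | X ≤ R ∧ ¬ Bad X J}

theorem closed_top [Finite G] {L L' : Subgroup G} (hL : IsCoatom L) (hL' : IsCoatom L') (ne : L ≠ L')
    {A B : Subgroup G} (hA : ∀ N, IsCoatom N → A ≤ N → N = L) (hB : ∀ N, IsCoatom N → B ≤ N → N = L')
    {Z : Set G} (zA : ∀ a ∈ A, ∀ g ∈ Z, a * g ∈ Z) (zB : ∀ a ∈ B, ∀ g ∈ Z, a * g ∈ Z)
    {g₀ : G} (h₀ : g₀ ∈ Z) (g : G) : g ∈ Z := by
  let St : Subgroup G :=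
    { carrier := {a | ∀ g, g ∈ Z ↔ a * g ∈ Z}
      one_mem' := fun g => by rw [one_mul]
      mul_mem' := fun {a b} ha hb g => by rw [mul_assoc, ← ha, ← hb]
      inv_mem' := fun {a} ha g => by rw [ha (a⁻¹ * g), mul_inv_cancel_left] }
  have key : ∀ A : Subgroup G, (∀ a ∈ A, ∀ g ∈ Z, a * g ∈ Z) → A ≤ St := fun A zA a ha g =>
    ⟨zA a ha g, fun h' => by simpa using zA a⁻¹ (A.inv_mem ha) _ h'⟩
  have e : St = ⊤ := by
    by_contra e
    obtain ⟨N, hN, hle⟩ := (eq_top_or_exists_le_coatom St).resolve_left e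
    exact ne ((hA N hN ((key A zA).trans hle)).symm.trans (hB N hN ((key B zB).trans hle)))
  have h1 : g * g₀⁻¹ ∈ St := e ▸ mem_top _
  simpa using (h1 g₀).mp h₀

section
variable [Finite G] {T M R L L' : Subgroup G} (h : Mx T M) (n : Nice T R L L')
include h n

theorem Nice.norm {J : Subgroup G} (hJ : IsCoatom J) (hRJ : R ≤ J)
    {N : Subgroup G} (hN : IsCoatom N) (hle : normalizer (RJ T R J : Set G) ≤ N) : N = J := by
  by_contra hne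
  have hR : R ≤ normalizer (RJ T R J : Set G) := fun r hr => mem_normalizer_sSup fun V hV =>
    ⟨Cl.cj hV.1 r, conj_smul_le_of_mem hV.2.1 hr, fun hb => hV.2.2 (by
      rw [← cj_of_mem (hRJ hr)] at hb; exact hb.of_cj)⟩
  have hc : ∀ U ∈ {X ∈ Cl T | X ≤ J ∧ ¬ Bad X J}, ∀ g ∈ J,
      g ⋆ U ∈ {X ∈ Cl T | X ≤ J ∧ ¬ Bad X J} := fun V hV g hg =>
    ⟨Cl.cj hV.1 g, conj_smul_le_of_mem hV.2.1 hg, fun hb => hV.2.2 (by
      rw [← cj_of_mem hg] at hb; exact hb.of_cj)⟩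
  have hs : {X ∈ Cl T | X ≤ R ∧ ¬ Bad X J} ⊆ {X ∈ Cl T | X ≤ J ∧ ¬ Bad X J} :=
    fun V hV => ⟨hV.1, hV.2.1.trans hRJ, hV.2.2⟩
  rcases hs.eq_or_ssubset with e | e
  · have : J ≤ N := fun g hg => hle (mem_normalizer_sSup fun V hV => by
      rw [e] at hV ⊢; exact hc V hV g hg)
    exact hne ((hJ.le_iff.mp this).resolve_left hN.1)
  · obtain ⟨U, hU, hU0, hUn⟩ := exists_mem_le_normalizer_sSup (X := J)
      (fun U hU => h.sn hU.1 hJ hU.2.1 hU.2.2) hc e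
    exact hU0 ⟨hU.1, n.max N J hN hJ hne (hR.trans hle) hRJ U hU.1 (hUn.trans hle) hU.2.1, hU.2.2⟩

theorem Nice.exn : ∃ X ∈ Cl T, X ≤ R ∧ ¬ Bad X L := by
  by_contra h'
  push Not at h'
  obtain ⟨F, hF, hFR⟩ := n.ex
  have gF := h.gd hF (h' F hF hFR)
  have e : RJ T R L' = F := le_antisymm
    (sSup_le fun V hV => (h.U hV.1 hF (h' V hV.1 hV.2.1) gF.bad n.cL' n.ne.symm
      (hV.2.1.trans n.le') (hFR.trans n.le')).le)
    (le_sSup ⟨hF, hFR, fun hb => n.ne (gF.uniq hb).symm⟩)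
  exact n.ne (n.norm h n.cL' n.le' n.cL (e ▸ gF.normalizer_le))

theorem Nice.norm_le : normalizer (RJ T R L : Set G) ≤ L := by
  obtain ⟨X, hX, hXR, hb⟩ := n.exn h
  rcases eq_top_or_exists_le_coatom (normalizer (RJ T R L : Set G)) with e | ⟨N, hN, hle⟩
  · obtain ⟨g, hg⟩ := h.ex hX
    have h0 : X ∈ {X ∈ Cl T | X ≤ R ∧ ¬ Bad X L} := ⟨hX, hXR, hb⟩
    have h1 := (h.gd hX hg).ncl (RJ T R L) (normalizer_eq_top_iff.mp e) (le_sSup h0)
    have h2 : RJ T R L ≤ L := sSup_le fun V hV => hV.2.1.trans n.le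
    exact absurd (top_le_iff.mp (h1 ▸ h2)) n.cL.1
  · exact n.norm h n.cL n.le hN hle ▸ hle

theorem Nice.step {a : G} (ha : a ∈ normalizer (RJ T R L : Set G)) {g : G}
    (hg : ∃ X ∈ Cl T, X ≤ R ∧ Bad X (g ⋆ M)) : ∃ X ∈ Cl T, X ≤ R ∧ Bad X ((a * g) ⋆ M) := by
  obtain ⟨X, hX, hXR, hb⟩ := hg
  rw [← conj_smul_conj_smul]
  by_cases hb' : Bad X L
  · refine ⟨X, hX, hXR, ?_⟩
    rwa [(h.gd hX hb').uniq hb, cj_of_mem (n.norm_le h ha)]
  · have h0 : X ∈ {X ∈ Cl T | X ≤ R ∧ ¬ Bad X L} := ⟨hX, hXR, hb'⟩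
    refine ⟨_, Cl.cj hX a, (conj_smul_le_of_mem_normalizer (H := RJ T R L) (le_sSup h0) ha).trans
      (sSup_le fun V hV => hV.2.1), hb.cj a⟩

theorem Nice.all (g : G) : ∃ X ∈ Cl T, X ≤ R ∧ Bad X (g ⋆ M) := by
  obtain ⟨X, hX, hXR⟩ := n.ex
  obtain ⟨g₀, hg₀⟩ := h.ex hX
  exact closed_top (Z := {g | ∃ X ∈ Cl T, X ≤ R ∧ Bad X (g ⋆ M)}) n.cL n.cL' n.ne
    (fun N hN hle => n.norm h n.cL n.le hN hle) (fun N hN hle => n.norm h n.cL' n.le' hN hle)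
    (fun a ha g hg => n.step h ha hg) (fun a ha g hg => n.symm.step h ha hg) ⟨X, hX, hXR, hg₀⟩ g

theorem Nice.le_of {X J : Subgroup G} (hJ : IsCoatom J) (hRJ : R ≤ J) (hX : X ∈ Cl T) (hXJ : X ≤ J)
    (hb : ¬ Bad X J) : X ≤ R := by
  obtain ⟨g, hg⟩ := h.ex hX
  obtain ⟨F, hF, hFR, hFb⟩ := n.all h g
  rw [h.U hX hF hg hFb hJ (fun e => hb (e ▸ hg)) hXJ (hFR.trans hRJ)]
  exact hFR

theorem Nice.eq_of {X Y K : Subgroup G} (hX : X ∈ Cl T) (hY : Y ∈ Cl T) (bX : Bad X K)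
    (bY : Bad Y K) (hXR : X ≤ R) (hYR : Y ≤ R) : X = Y := by
  by_cases e : L = K
  · exact h.U hX hY bX bY n.cL' (e ▸ n.ne.symm) (hXR.trans n.le') (hYR.trans n.le')
  · exact h.U hX hY bX bY n.cL e (hXR.trans n.le) (hYR.trans n.le)

theorem Nice.vert {X K K' J : Subgroup G} (hJ : IsCoatom J) (hRJ : R ≤ J) (hX : X ∈ Cl T)
    (bX : Bad X K) {g : G} (hK : g ⋆ K ≠ J) (hK' : g ⋆ K' = J) (hXK' : X ≤ K') : g ⋆ X ≤ R :=
  n.le_of h hJ hRJ (Cl.cj hX g) (hK' ▸ cj_le_cj.mpr hXK') fun hb =>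
    hK ((h.gd (Cl.cj hX g) hb).uniq (bX.cj g))

theorem Nice.move {X K J : Subgroup G} (hJ : IsCoatom J) (hRJ : R ≤ J) (hX : X ∈ Cl T)
    (bX : Bad X K) {g : G} (hK : g ⋆ K ≠ J) (hg : g ⋆ X ≤ R) {l : G} (hl : l ∈ J) :
    (l * g) ⋆ X ≤ R := by
  rw [← conj_smul_conj_smul]
  exact n.vert h hJ hRJ (Cl.cj hX g) (bX.cj g) (K' := J)
    (fun e => hK (cj_inj (e.trans (cj_of_mem hl).symm))) (cj_of_mem hl) (hg.trans hRJ)

theorem Nice.fin {X K : Subgroup G} (hX : X ∈ Cl T) (bX : Bad X K) (hK : ∀ m ∈ K, m ⋆ X ≤ R) :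
    False := by
  obtain ⟨m, hm, hne⟩ := bX.exists_mem
  have h1 := hK 1 K.one_mem
  rw [cj_one] at h1
  have h2 := bX.cj m
  rw [cj_of_mem hm] at h2
  exact hne (n.eq_of h (Cl.cj hX m) hX h2 bX (hK m hm) h1)

theorem Nice.conn {Z : Set G} (zA : ∀ a ∈ L, ∀ g ∈ Z, a * g ∈ Z) (zB : ∀ a ∈ L', ∀ g ∈ Z, a * g ∈ Z)
    {g₀ : G} (h₀ : g₀ ∈ Z) (g : G) : g ∈ Z :=
  closed_top n.cL n.cL' n.ne (fun _ hN hle => (n.cL.le_iff.mp hle).resolve_left hN.1)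
    (fun _ hN hle => (n.cL'.le_iff.mp hle).resolve_left hN.1) zA zB h₀ g

theorem Nice.not_vertex (g₀ : G) : g₀ ⋆ M ≠ L := by
  intro e
  obtain ⟨y, -, hy⟩ := SetLike.exists_of_lt (lt_top_iff_ne_top.mpr n.cL.1)
  have gL := h.good.cj g₀
  rw [e] at gL
  have hK : y ⋆ L ≠ L := fun e' => hy (mem_of_cj_eq gL.ncl gL.bad.1 gL.bad.2.1 e')
  obtain ⟨T₁, hT₁, hR₁, b₁⟩ := n.all h (y * g₀)
  obtain ⟨T₂, hT₂, hR₂, b₂⟩ := n.all h (y⁻¹ * g₀)
  rw [← conj_smul_conj_smul, e] at b₁ b₂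
  have b₃ := b₂.cj y
  rw [cj_cj_inv] at b₃
  have hT₃ := Cl.cj hT₂ y
  have l₃ : y ⋆ T₂ ≤ y ⋆ L := cj_le_cj.mpr (hR₂.trans n.le)
  set T₃ := y ⋆ T₂
  obtain ⟨m, hm, hne⟩ := b₃.exists_mem
  have b₄ := b₃.cj m
  rw [cj_of_mem hm] at b₄
  have hT₄ := Cl.cj hT₃ m
  set T₄ := m ⋆ T₃
  have key : ∀ J, IsCoatom J → R ≤ J → ∀ a ∈ J, ∀ g ∈ {g : G | g ⋆ T₄ ≤ R ∧ ¬ g ⋆ T₁ ≤ R},
      a * g ∈ {g : G | g ⋆ T₄ ≤ R ∧ ¬ g ⋆ T₁ ≤ R} := by
    rintro J hJ hRJ a ha g ⟨h1, h2⟩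
    have v1 : g ⋆ L ≠ J := fun e' => h2 (n.vert h hJ hRJ hT₁ b₁
      (fun e'' => hK (cj_inj (e''.trans e'.symm))) e' (hR₁.trans n.le))
    have v2 : g ⋆ y ⋆ L ≠ J := fun e' => hne (cj_inj (n.eq_of h (Cl.cj hT₄ g) (Cl.cj hT₃ g)
      (b₄.cj g) (b₃.cj g) h1 (n.vert h hJ hRJ hT₃ b₃ v1 e' l₃)))
    refine ⟨n.move h hJ hRJ hT₄ b₄ v1 h1 ha, fun h3 => h2 ?_⟩
    have := n.move h hJ hRJ hT₁ b₁ (g := a * g) (fun e' => v2 (by
      rw [← conj_smul_conj_smul] at e'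
      exact cj_inj (e'.trans (cj_of_mem ha).symm))) h3 (J.inv_mem ha)
    rwa [inv_mul_cancel_left] at this
  have sub : {g : G | g ⋆ T₄ ≤ R} ⊆ {g : G | g ⋆ T₁ ≤ R} := fun g hg => by
    by_contra h2
    have := n.conn h (key L n.cL n.le) (key L' n.cL' n.le') ⟨hg, h2⟩ 1
    exact this.2 ((cj_one T₁).symm ▸ hR₁)
  have cd : ∀ X ∈ Cl T, {g : G | g ⋆ X ≤ R}.ncard = {g : G | g ⋆ T ≤ R}.ncard := by
    rintro _ ⟨x, rfl⟩
    refine Set.ncard_congr (fun g _ => g * x) (fun g hg => ?_) (fun a b _ _ e => mul_right_cancel e)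
      fun b hb => ⟨b * x⁻¹, ?_, by simp⟩
    · rwa [Set.mem_setOf_eq, ← conj_smul_conj_smul]
    · rwa [Set.mem_setOf_eq, conj_smul_conj_smul, inv_mul_cancel_right]
  have eq := Set.eq_of_subset_of_ncard_le sub (by rw [cd _ hT₁, cd _ hT₄])
  refine n.fin h hT₄ b₄ fun a ha => ?_
  have : a ∈ {g : G | g ⋆ T₁ ≤ R} := n.vert h n.cL n.le hT₁ b₁
    (fun e' => hK (cj_inj (e'.trans (cj_of_mem ha).symm))) (cj_of_mem ha) (hR₁.trans n.le)
  rwa [← eq] at this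

theorem Nice.false : False := by
  obtain ⟨X, hX, hXR, hb⟩ := n.all h 1
  rw [cj_one] at hb
  refine n.fin h hX hb fun m _ => n.conn h (Z := {g : G | g ⋆ X ≤ R})
    (fun a ha g hg => n.move h n.cL n.le hX hb (n.not_vertex h g) hg ha)
    (fun a ha g hg => n.move h n.cL' n.le' hX hb (n.symm.not_vertex h g) hg ha) (g₀ := 1) ?_ m
  rwa [Set.mem_setOf_eq, cj_one]

end

theorem not_good [Finite G] {X K : Subgroup G} (h : Good X K) : False := by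
  obtain ⟨⟨T, M⟩, h1, h2⟩ := Set.exists_max_image {p : Subgroup G × Subgroup G | Good p.1 p.2}
    (fun p => Nat.card p.1) (Set.toFinite _) ⟨(X, K), h⟩
  have hM : Mx T M := ⟨h1, fun X K hg => h2 (X, K) hg⟩
  obtain ⟨R, L, L', n⟩ := hM.exists_nice
  exact n.false hM

/-- Flavell's theorem. -/
theorem flavell [Finite G] {X K L : Subgroup G} (hK : IsCoatom K) (hXK : X ≤ K) (hL : IsCoatom L)
    (hXL : X ≤ L) (hne : L ≠ K) (hsn : ∀ L, IsCoatom L → X ≤ L → L ≠ K → SN X L) :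
    ∃ N : Subgroup G, N.Normal ∧ X ≤ N ∧ N ≠ ⊤ := by
  by_contra ncl
  push Not at ncl
  by_cases hs : SN X K
  · have hn : ¬ SN X ⊤ := fun h' => by
      obtain ⟨Y, h1, h2, h3⟩ := h'.exists_last fun e => hK.1 (top_le_iff.mp (e ▸ hXK))
      exact h2.ne (ncl Y (normalizer_eq_top_iff.mp (top_le_iff.mp h3)) h1.le)
    obtain ⟨M, hM, h2⟩ := zipper le_top hn fun H hH hlt => by
      obtain ⟨N, hN, hle⟩ := (eq_top_or_exists_le_coatom H).resolve_left hlt.ne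
      by_cases e : N = K
      · exact hs.of_le hH (e ▸ hle)
      · exact (hsn N hN (hH.trans hle) e).of_le hH hle
    exact hne (((hL.le_iff.mp (h2 L hXL hL.lt_top)).resolve_left hM.ne).symm.trans
      ((hK.le_iff.mp (h2 K hXK hK.lt_top)).resolve_left hM.ne))
  · exact not_good ⟨ncl, ⟨hK, hXK, hs⟩, hsn, L, hL, hXL, hne⟩

end CF.Zip
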